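import Mathlib
import Cfsg.Agent.Lib.Involutions.Basic
import Cfsg.Agent.Lib.RankOne.OddInv

/-!
Automorphisms of prime order coprime to the order of a finite group: fixed points, good
involutions (involutions whose centralizer is fixed elementwise), and a four-group lemma.
-/

set_option autoImplicit false

namespace CfsgLib.CoprimeInvCent

open CfsgLib.Involutions CfsgLib.RankOne

variable {X : Type*} [Group X]

/-- An automorphism of prime order (or trivial) coprime to the group order. -/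
structure CoprimePair (α : MulAut X) (r : ℕ) : Prop where
  prime : r.Prime
  pow : α ^ r = 1
  cop : r.Coprime (Nat.card X)

/-- The elements fixed by an automorphism. -/
def fixedSubgroup (α : MulAut X) : Subgroup X where
  carrier := {g | α g = g}
  one_mem' := map_one α
  mul_mem' := fun {x y} (hx : α x = x) (hy : α y = y) =>
    show α (x * y) = x * y by rw [map_mul, hx, hy]
  inv_mem' := fun {x} (hx : α x = x) => show α x⁻¹ = x⁻¹ by rw [map_inv, hx]

@[simp] theorem mem_fixedSubgroup {α : MulAut X} {g : X} : g ∈ fixedSubgroup α ↔ α g = g :=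
  Iff.rfl

/-- An involution whose centralizer is fixed elementwise. -/
def Good (α : MulAut X) (u : X) : Prop := orderOf u = 2 ∧ ∀ g, g * u = u * g → α g = g

theorem Good.fix {α : MulAut X} {u : X} (hu : Good α u) : α u = u := hu.2 u rfl

theorem pow_apply_eq {α : MulAut X} {g k : X} (hg : α g = g * k) (hk : α k = k) (n : ℕ) :
    (α ^ n) g = g * k ^ n := by
  induction n with
  | zero => simp
  | succ n ih => rw [pow_succ', MulAut.mul_apply, ih, map_mul, map_pow, hg, hk, pow_succ', mul_assoc]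

variable {α : MulAut X} {r : ℕ}

theorem CoprimePair.eq_of_fix (hp : CoprimePair α r) {g : X}
    (h : α (g⁻¹ * α g) = g⁻¹ * α g) : α g = g := by
  have h1 := pow_apply_eq (g := g) (k := g⁻¹ * α g) (by group) h r
  rw [hp.pow, MulAut.one_apply] at h1
  have h2 : (g⁻¹ * α g) ^ r = 1 := mul_left_cancel (a := g) (by rw [← h1, mul_one])
  have h3 : orderOf (g⁻¹ * α g) ∣ 1 := hp.cop ▸ Nat.dvd_gcd (orderOf_dvd_of_pow_eq_one h2)
    (orderOf_dvd_natCard _)
  exact (inv_mul_eq_one.1 (orderOf_eq_one_iff.1 (Nat.eq_one_of_dvd_one h3))).symm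

/-- If a conjugate of a good involution is fixed, so is the conjugating element. -/
theorem CoprimePair.fix_of_conj_fix (hp : CoprimePair α r) {u g : X} (hu : Good α u)
    (h : α (g * u * g⁻¹) = g * u * g⁻¹) : α g = g := by
  refine hp.eq_of_fix (hu.2 _ ?_)
  rw [map_mul, map_mul, map_inv, hu.fix] at h
  calc g⁻¹ * α g * u = g⁻¹ * (α g * u * (α g)⁻¹) * α g := by group
    _ = g⁻¹ * (g * u * g⁻¹) * α g := by rw [h]
    _ = u * (g⁻¹ * α g) := by group

theorem CoprimePair.good_conj (hp : CoprimePair α r) {u g : X} (hu : Good α u)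
    (h : α (g * u * g⁻¹) = g * u * g⁻¹) : Good α (g * u * g⁻¹) := by
  have hg := hp.fix_of_conj_fix hu h
  refine ⟨(orderOf_conj g u).trans hu.1, fun c hc => ?_⟩
  have := hu.2 (g⁻¹ * c * g) (by
    calc g⁻¹ * c * g * u = g⁻¹ * (c * (g * u * g⁻¹)) * g := by group
      _ = g⁻¹ * ((g * u * g⁻¹) * c) * g := by rw [hc]
      _ = u * (g⁻¹ * c * g) := by group)
  rw [map_mul, map_mul, map_inv, hg] at this
  exact mul_left_cancel (a := g⁻¹) (mul_right_cancel this)

theorem CoprimePair.good_of_isConj (hp : CoprimePair α r) {u s : X} (hu : Good α u)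
    (hs : α s = s) (h : IsConj u s) : Good α s := by
  obtain ⟨g, rfl⟩ := isConj_iff.1 h
  exact hp.good_conj hu hs

/-- An invariant set of cardinality prime to `r` has a fixed point. -/
theorem CoprimePair.exists_fixed [Finite X] (hp : CoprimePair α r) (S : Set X)
    (hS : ∀ x ∈ S, α x ∈ S) (hc : ¬ r ∣ Nat.card S) : ∃ x ∈ S, α x = x := by
  classical
  haveI := Fact.mk hp.prime
  haveI : Fintype S := Fintype.ofFinite S
  let f : S → S := fun x => ⟨α x, hS x x.2⟩
  have hf : Function.Injective f := fun x y h =>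
    Subtype.ext (α.injective (congrArg Subtype.val h))
  let σ : Equiv.Perm S := Equiv.ofBijective f (Finite.injective_iff_bijective.1 hf)
  have hσn : ∀ (n : ℕ) (x : S), ((σ ^ n) x : X) = (α ^ n) x := by
    intro n
    induction n with
    | zero => intro x; rfl
    | succ n ih => intro x; rw [pow_succ', pow_succ', Equiv.Perm.mul_apply, MulAut.mul_apply,
                     ← ih x]; rfl
  have hσ : σ ^ r ^ 1 = 1 := by
    ext x
    rw [pow_one, hσn r x, hp.pow]
    rfl
  obtain ⟨⟨x, hx⟩, hfx⟩ := Equiv.Perm.exists_fixed_point_of_prime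
    (by rwa [Nat.card_eq_fintype_card] at hc) hσ
  exact ⟨x, hx, congrArg Subtype.val hfx⟩

theorem CoprimePair.not_dvd_of_dvd_card (hp : CoprimePair α r) {m : ℕ} (h : m ∣ Nat.card X) :
    ¬ r ∣ m := fun hr => hp.prime.one_lt.ne' (Nat.dvd_one.1
    (hp.cop ▸ Nat.dvd_gcd dvd_rfl (hr.trans h)))

/-- Fixed elements conjugate in the group are conjugate by a fixed element. -/
theorem CoprimePair.exists_fix_conj [Finite X] (hp : CoprimePair α r) {s g : X} (hs : α s = s)
    (hgs : α (g * s * g⁻¹) = g * s * g⁻¹) : ∃ h, α h = h ∧ h * s * h⁻¹ = g * s * g⁻¹ := by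
  set S : Set X := {x | x * s * x⁻¹ = g * s * g⁻¹}
  have hcard : Nat.card S = Nat.card (Subgroup.centralizer ({s} : Set X)) := by
    refine Nat.card_congr ⟨fun x => ⟨g⁻¹ * x, ?_⟩, fun c => ⟨g * c, ?_⟩, ?_, ?_⟩
    · rw [mem_centralizer_singleton]
      calc g⁻¹ * (x : X) * s = g⁻¹ * ((x : X) * s * (x : X)⁻¹) * x := by group
        _ = g⁻¹ * (g * s * g⁻¹) * x := by rw [show (x : X) * s * (x : X)⁻¹ = _ from x.2]
        _ = s * (g⁻¹ * x) := by group
    · show g * (c : X) * s * (g * c)⁻¹ = _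
      rw [mul_assoc g (c : X) s, mem_centralizer_singleton.1 c.2]
      group
    · intro x; ext; simp
    · intro c; ext; simp
  obtain ⟨h, hh, hfix⟩ := hp.exists_fixed S
    (fun x hx => by
      show α x * s * (α x)⁻¹ = _
      rw [← hgs, ← show x * s * x⁻¹ = g * s * g⁻¹ from hx, map_mul, map_mul, map_inv, hs])
    (hcard ▸ hp.not_dvd_of_dvd_card (Subgroup.card_subgroup_dvd_card _))
  exact ⟨h, hfix, hh⟩

/-- Two involutions with product in a subgroup of odd order are conjugate there. -/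
theorem exists_conj_mem_of_mul_mem [Finite X] {K : Subgroup X} (hK : Odd (Nat.card K)) {x y : X}
    (hx : orderOf x = 2) (hy : orderOf y = 2) (h : x * y ∈ K) :
    ∃ d ∈ K, d * x * d⁻¹ = y := by
  obtain ⟨m, hm⟩ := hK.of_dvd_nat (Subgroup.orderOf_dvd_natCard K h)
  refine ⟨(x * y) ^ (m : ℤ), zpow_mem h _, ?_⟩
  rw [conj_left_by_zpow hx hy]
  conv_rhs => rw [right_eq_zpow_mul hx hy]
  congr 1
  rw [← orderOf_dvd_sub_iff_zpow_eq_zpow, hm]
  simp

section Restrict

variable [Finite X]

/-- Restriction of an automorphism to an invariant subgroup of a finite group. -/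
noncomputable def restrictAut (α : MulAut X) (K : Subgroup X) (h : ∀ x ∈ K, α x ∈ K) :
    MulAut K :=
  MulEquiv.ofBijective
    (MonoidHom.codRestrict (α.toMonoidHom.comp K.subtype) K (fun x => h x x.2))
    (Finite.injective_iff_bijective.1 fun x y hxy =>
      Subtype.ext (α.injective (congrArg Subtype.val hxy)))

@[simp] theorem coe_restrictAut (α : MulAut X) (K : Subgroup X) (h : ∀ x ∈ K, α x ∈ K) (x : K) :
    ((restrictAut α K h x : K) : X) = α x := rfl

theorem coe_restrictAut_pow (α : MulAut X) (K : Subgroup X) (h : ∀ x ∈ K, α x ∈ K) (n : ℕ)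
    (x : K) : (((restrictAut α K h) ^ n) x : X) = (α ^ n) (x : X) := by
  induction n with
  | zero => rfl
  | succ n ih => rw [pow_succ', pow_succ', MulAut.mul_apply, MulAut.mul_apply, coe_restrictAut, ih]

theorem CoprimePair.restrict (hp : CoprimePair α r) (K : Subgroup X) (h : ∀ x ∈ K, α x ∈ K) :
    CoprimePair (restrictAut α K h) r :=
  ⟨hp.prime, MulEquiv.ext fun x => Subtype.ext (by rw [coe_restrictAut_pow, hp.pow]; rfl),
    hp.cop.coprime_dvd_right (Subgroup.card_subgroup_dvd_card K)⟩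

end Restrict

section Quotient

/-- The automorphism induced on a quotient. -/
def quotientAut (α : MulAut X) (N : Subgroup X) [N.Normal]
    (h : N.map (α : X ≃* X).toMonoidHom = N) : MulAut (X ⧸ N) :=
  QuotientGroup.congr N N α h

theorem quotientAut_mk (α : MulAut X) (N : Subgroup X) [N.Normal]
    (h : N.map (α : X ≃* X).toMonoidHom = N) (g : X) :
    quotientAut α N h (g : X ⧸ N) = ((α g : X) : X ⧸ N) := rfl

theorem CoprimePair.quotient [Finite X] (hp : CoprimePair α r) (N : Subgroup X) [N.Normal]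
    (h : N.map (α : X ≃* X).toMonoidHom = N) : CoprimePair (quotientAut α N h) r := by
  refine ⟨hp.prime, ?_, hp.cop.coprime_dvd_right N.card_quotient_dvd_card⟩
  have key : ∀ (n : ℕ) (g : X),
      ((quotientAut α N h) ^ n) (g : X ⧸ N) = (((α ^ n) g : X) : X ⧸ N) := by
    intro n
    induction n with
    | zero => intro g; rfl
    | succ n ih =>
      intro g
      rw [pow_succ', pow_succ', MulAut.mul_apply, MulAut.mul_apply, ih, quotientAut_mk]
  refine MulEquiv.ext fun x => ?_
  induction x using QuotientGroup.induction_on with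
  | H g => rw [key, hp.pow]; rfl

end Quotient

/-- A four-group `{1, a, x, a x}` acting on a subgroup of odd order, where the centralizers of
`a` and `x` are fixed: the subgroup is the fixed part times the centralizer of `a x`. -/
theorem exists_fix_mul_of_four {U : Subgroup X} (hU : Odd (Nat.card U)) {a x : X}
    (ha : a * a = 1) (hx : x * x = 1) (hax : a * x = x * a)
    (na : ∀ g ∈ U, a * g * a⁻¹ ∈ U) (nx : ∀ g ∈ U, x * g * x⁻¹ ∈ U)
    (fa : ∀ g ∈ U, g * a = a * g → α g = g) (fx : ∀ g ∈ U, g * x = x * g → α g = g)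
    {g : X} (hg : g ∈ U) :
    ∃ h c, α h = h ∧ c ∈ U ∧ c * (a * x) = a * x * c ∧ g = h * c := by
  have hainv : a⁻¹ = a := inv_eq_of_mul_eq_one_right ha
  have hi : a * x * (a * x) = 1 := by
    calc a * x * (a * x) = a * (x * a) * x := by group
      _ = a * a * (x * x) := by rw [← hax]; group
      _ = 1 := by rw [ha, hx, one_mul]
  have ni : ∀ g ∈ U, a * x * g * (a * x)⁻¹ ∈ U := fun g hg => by
    rw [show a * x * g * (a * x)⁻¹ = a * (x * g * x⁻¹) * a⁻¹ by group]
    exact na _ (nx g hg)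
  obtain ⟨⟨y, z⟩, ⟨hy, hz, hyz⟩, -⟩ := existsUnique_factor hi hU ni (U.inv_mem hg)
  simp only at hy hz hyz
  obtain ⟨hyU, hyC⟩ := Subgroup.mem_inf.1 hy
  rw [Subgroup.mem_centralizer_singleton_iff] at hyC
  refine ⟨z⁻¹, y⁻¹, ?_, U.inv_mem hyU,
    ((show Commute y (a * x) from hyC).inv_left).eq, by
      rw [← mul_inv_rev, ← hyz, inv_inv]⟩
  set w := z⁻¹ with hw
  set φ : X →* X := (MulAut.conj a).toMonoidHom
  set θ : X →* X := (MulAut.conj (a * x)).toMonoidHom
  have hφe : ∀ g, φ g = a * g * a⁻¹ := fun g => rfl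
  have hθe : ∀ g, θ g = a * x * g * (a * x)⁻¹ := fun g => rfl
  have hφφ : ∀ g, φ (φ g) = g := fun g => by
    rw [hφe, hφe]
    calc a * (a * g * a⁻¹) * a⁻¹ = a * a * g * (a * a)⁻¹ := by group
      _ = g := by rw [ha]; group
  have hθφ : ∀ g, θ (φ g) = φ (θ g) := fun g => by
    have hc : a * x * a = a * (a * x) := by rw [mul_assoc, ← hax]
    rw [hφe, hθe, hφe, hθe]
    calc a * x * (a * g * a⁻¹) * (a * x)⁻¹ = a * x * a * g * (a * x * a)⁻¹ := by group
      _ = a * (a * x * g * (a * x)⁻¹) * a⁻¹ := by rw [hc]; group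
  have hwU : w ∈ U := U.inv_mem hz.1
  have hθw : θ w = w⁻¹ := by
    rw [hw, map_inv, hθe, hz.2]
  set u' := φ w with hu'
  have hu'U : u' ∈ U := na w hwU
  have hθu' : θ u' = u'⁻¹ := by rw [hu', hθφ, hθw, map_inv]
  have huniq : ∀ {s s' : X}, s ∈ U → s' ∈ U → s * w⁻¹ * s = u' →
      s' * w⁻¹ * s' = u' → s = s' := by
    intro s s' hs hs' h h'
    set q := w⁻¹ ^ halfExp U
    have hq : q ∈ U := U.pow_mem (U.inv_mem hwU) _
    have hqq : q * q = w⁻¹ := sqrt_mul_self hU (U.inv_mem hwU)
    have := eq_of_mul_self_eq hU (U.mul_mem (U.mul_mem hq hs) hq)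
      (U.mul_mem (U.mul_mem hq hs') hq) (by
        calc q * s * q * (q * s * q) = q * (s * (q * q) * s) * q := by group
          _ = q * (s' * (q * q) * s') * q := by rw [hqq, h, h']
          _ = q * s' * q * (q * s' * q) := by group)
    exact mul_left_cancel (mul_right_cancel this)
  set q := w⁻¹ ^ halfExp U
  have hq : q ∈ U := U.pow_mem (U.inv_mem hwU) _
  have hqq : q * q = w⁻¹ := sqrt_mul_self hU (U.inv_mem hwU)
  have hquq : q * u' * q ∈ U := U.mul_mem (U.mul_mem hq hu'U) hq
  set ρ := (q * u' * q) ^ halfExp U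
  have hρρ : ρ * ρ = q * u' * q := sqrt_mul_self hU hquq
  set s := q⁻¹ * ρ * q⁻¹ with hs
  have hsU : s ∈ U :=
    U.mul_mem (U.mul_mem (U.inv_mem hq) (U.pow_mem hquq _)) (U.inv_mem hq)
  have hsA : s * w⁻¹ * s = u' := by
    rw [← hqq, hs]
    calc q⁻¹ * ρ * q⁻¹ * (q * q) * (q⁻¹ * ρ * q⁻¹) = q⁻¹ * (ρ * ρ) * q⁻¹ := by group
      _ = u' := by rw [hρρ]; group
  have hφs : φ s = s := by
    refine huniq (na s hsU) hsU ?_ hsA
    have h1 : φ s * u'⁻¹ * φ s = w := by
      rw [hu', ← map_inv, ← map_mul, ← map_mul, hsA, hu', hφφ]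
    nth_rewrite 1 [← h1]
    group
  have hθs : θ s = s⁻¹ := by
    refine inv_eq_iff_eq_inv.1 (huniq (U.inv_mem (ni s hsU)) hsU ?_ hsA)
    have h1 : θ s * w * θ s = u'⁻¹ := by
      have := congrArg θ hsA
      rwa [map_mul, map_mul, map_inv, hθw, inv_inv, hθu'] at this
    rw [← inv_inv u', ← h1]
    group
  set p := s ^ halfExp U with hpdef
  have hpU : p ∈ U := U.pow_mem hsU _
  have hpp : p * p = s := sqrt_mul_self hU hsU
  have hφp : φ p = p := by rw [hpdef, map_pow, hφs]
  have hθp : θ p = p⁻¹ := by rw [hpdef, map_pow, hθs, inv_pow]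
  have hpfix : α p = p := by
    refine fa p hpU ?_
    rw [hφe] at hφp
    nth_rewrite 1 [← hφp]
    group
  set b := p⁻¹ * w * p⁻¹ with hb
  have hbU : b ∈ U := U.mul_mem (U.mul_mem (U.inv_mem hpU) hwU) (U.inv_mem hpU)
  have hθb : θ b = b⁻¹ := by
    rw [hb, map_mul, map_mul, map_inv, hθp, hθw]
    group
  have hφb : φ b = b⁻¹ := by
    rw [hb, map_mul, map_mul, map_inv, hφp, ← hu', ← hsA, ← hpp]
    group
  have hbfix : α b = b := by
    refine fx b hbU ?_
    have h1 : a * x * b * (a * x)⁻¹ = a * b * a⁻¹ := (hθb.trans hφb.symm : θ b = φ b)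
    have h2 : x * b * x⁻¹ = b := by
      calc x * b * x⁻¹ = a⁻¹ * (a * x * b * (a * x)⁻¹) * a := by group
        _ = b := by rw [h1]; group
    nth_rewrite 1 [← h2]
    group
  have hwb : w = p * b * p := by rw [hb]; group
  rw [hwb, map_mul, map_mul, hpfix, hbfix]

end CfsgLib.CoprimeInvCent
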