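import Cfsg.Agent.Lib.CoprimeInvCent.Setup
import Cfsg.Agent.Lib.Involutions.BrauerSuzuki
import Cfsg.Agent.Lib.TwoFusion.StrongEmbed
import Cfsg.Agent.Lib.TwoGroupTricks.Isolated

/-!
A coprime automorphism fixing the centralizer of an involution elementwise acts trivially modulo
the odd core.
-/

set_option autoImplicit false
set_option linter.unusedSectionVars false

namespace CfsgLib.CoprimeInvCent

open CfsgLib.Involutions

universe u

variable {X : Type u} [Group X] [Finite X] {α : MulAut X} {r : ℕ}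

/-- The centralizer of a fixed involution commuting with a pair of good involutions whose product
is good is fixed. -/
theorem Setup.edge_good (S : Setup α r) {a x z : X} (ha : Good α a) (hx : Good α x)
    (hax : a * x = x * a) (hi : Good α (a * x)) (hz : orderOf z = 2) (haz : a * z = z * a)
    (hxz : x * z = z * x) : Good α z := by
  have hfz : α z = z := ha.2 z haz.symm
  refine ⟨hz, fun g hg => S.pair.eq_of_fix ?_⟩
  obtain ⟨h, c, hh, -, hc, heq⟩ := exists_fix_mul_of_four (odd_Oz z) (mul_self_eq_one ha.1)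
    (mul_self_eq_one hx.1) hax (fun y hy => Oz_conj haz hy) (fun y hy => Oz_conj hxz hy)
    (fun y _ => ha.2 y) (fun y _ => hx.2 y) (S.mem_Oz hz hfz ha haz hg)
  rw [heq, map_mul, hh, hi.2 c hc]

/-- An admissible involution for `σ`. -/
def Adm (α : MulAut X) (σ z : X) : Prop :=
  orderOf z = 2 ∧ α z = z ∧ z * σ = σ * z ∧ ∃ b, Good α b ∧ b * z = z * b

theorem Setup.exists_adm (_S : Setup α r) {σ b : X} (hσ : orderOf σ = 2) (hσm : α σ ≠ σ)
    (hb : Good α b) (hnc : ¬ IsConj b σ) :
    ∃ z, Adm α σ z ∧ ¬ Good α z ∧ z * b = b * z := by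
  obtain ⟨z, hz, hzb, hzσ, -⟩ := exists_commuting_involution hb.1 hσ hnc
  exact ⟨z, ⟨hz, hb.2 z hzb, hzσ, b, hb, hzb.symm⟩, fun hg => hσm (hg.2 σ hzσ.symm), hzb⟩

/-- A moved involution has a fixed conjugate by an element centralizing the fixed elements that
commute with it and lying in the odd cores of the admissible centralizers. -/
theorem Setup.exists_fixed_conj (S : Setup α r) {σ z₀ : X} (hσ : orderOf σ = 2)
    (hz₀ : Adm α σ z₀) :
    ∃ v, α (v * σ * v⁻¹) = v * σ * v⁻¹ ∧ (∀ z, α z = z → z * σ = σ * z → v * z = z * v) ∧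
      ∀ z, Adm α σ z → v ∈ Oz z := by
  let Z : Set X := {z | α z = z ∧ z * σ = σ * z}
  let V : Subgroup X := Subgroup.centralizer Z ⊓ ⨅ z : {z // Adm α σ z}, Oz (z : X)
  have hmemV : ∀ v, v ∈ V ↔ (∀ z, α z = z → z * σ = σ * z → v * z = z * v) ∧
      ∀ z, Adm α σ z → v ∈ Oz z := by
    intro v
    simp only [V, Z, Subgroup.mem_inf, Subgroup.mem_centralizer_iff, Set.mem_ofPred_eq,
      Subgroup.mem_iInf, Subtype.forall, and_imp]
    exact and_congr ⟨fun h z h1 h2 => (h z h1 h2).symm, fun h z h1 h2 => (h z h1 h2).symm⟩ Iff.rfl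
  have hVodd : Odd (Nat.card V) :=
    (odd_Oz z₀).of_dvd_nat (Subgroup.card_dvd_of_le fun v hv => ((hmemV v).1 hv).2 z₀ hz₀)
  have hαV : ∀ v ∈ V, α v ∈ V := by
    intro v hv
    obtain ⟨h1, h2⟩ := (hmemV v).1 hv
    refine (hmemV _).2 ⟨fun z hz hzσ => ?_, fun z hz => map_Oz hz.2.1 (h2 z hz)⟩
    have := congrArg α (h1 z hz hzσ)
    rwa [map_mul, map_mul, hz] at this
  have hσV : σ * α σ ∈ V := by
    refine (hmemV _).2 ⟨fun z hz hzσ => ?_, fun z hz => ?_⟩
    · have h1 : Commute σ z := hzσ.symm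
      have h2 : Commute (α σ) z := by
        have := congrArg α hzσ.symm
        rwa [map_mul, map_mul, hz] at this
      exact (h1.mul_left h2).eq
    · obtain ⟨h1, h2, h3, b, hb, hbz⟩ := hz
      have := S.mem_Oz h1 h2 hb hbz h3.symm
      rwa [inv_eq_self hσ] at this
  have hασ : orderOf (α σ) = 2 := by rw [MulEquiv.orderOf_eq, hσ]
  obtain ⟨d, hdV, hd⟩ := exists_conj_mem_of_mul_mem hVodd hσ hασ hσV
  letI : MulAction V X :=
    MulAction.compHom X ((ConjAct.toConjAct : X ≃* ConjAct X).toMonoidHom.comp V.subtype)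
  have hsmul : ∀ (v : V) (y : X), v • y = (v : X) * y * (v : X)⁻¹ := fun v y => rfl
  set O : Set X := MulAction.orbit V σ
  have hcard : Nat.card O ∣ Nat.card X := by
    rw [Nat.card_coe_set_eq, ← MulAction.index_stabilizer]
    exact (Subgroup.index_dvd_card _).trans (Subgroup.card_subgroup_dvd_card V)
  obtain ⟨y, ⟨v, rfl⟩, hfix⟩ := S.pair.exists_fixed O (by
    rintro _ ⟨v, rfl⟩
    refine ⟨⟨α (v : X) * d, V.mul_mem (hαV _ v.2) hdV⟩, ?_⟩
    simp only [hsmul, map_mul, map_inv, ← hd]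
    group) (S.pair.not_dvd_of_dvd_card hcard)
  obtain ⟨h1, h2⟩ := (hmemV _).1 v.2
  exact ⟨v, hfix, h1, h2⟩

/-- The product of two commuting good involutions is good. -/
theorem Setup.good_mul (S : Setup α r) {a x : X} (ha : Good α a) (hx : Good α x)
    (hax : a * x = x * a) (hne : a ≠ x) : Good α (a * x) := by
  by_contra hi
  have hi2 : orderOf (a * x) = 2 := orderOf_mul_eq_two ha.1 hx.1 hax hne
  have hfi : α (a * x) = a * x := by rw [map_mul, ha.fix, hx.fix]
  obtain ⟨g, hg⟩ := S.exists_moved_conj hi2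
  set σ := g * (a * x) * g⁻¹ with hσdef
  have hσ : orderOf σ = 2 := (orderOf_conj g _).trans hi2
  have hconj : IsConj σ (a * x) := (isConj_iff.2 ⟨g, rfl⟩ : IsConj (a * x) σ).symm
  have hnc : ∀ b, Good α b → ¬ IsConj b σ := fun b hb h =>
    hi (S.pair.good_of_isConj hb hfi (h.trans hconj))
  obtain ⟨z₀, hz₀, -, -⟩ := S.exists_adm hσ hg ha (hnc a ha)
  obtain ⟨v, hv, hvc, hvO⟩ := S.exists_fixed_conj hσ hz₀
  obtain ⟨h, hh, hhs⟩ := S.pair.exists_fix_conj (s := a * x) (g := v * g) hfi (by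
    rw [show v * g * (a * x) * (v * g)⁻¹ = v * σ * v⁻¹ by rw [hσdef]; group]
    exact hv)
  have hhs' : h * (a * x) * h⁻¹ = v * σ * v⁻¹ := hhs.trans (by rw [hσdef]; group)
  have ha1 : Good α (h * a * h⁻¹) := S.pair.good_conj ha (by
    rw [map_mul, map_mul, map_inv, hh, ha.fix])
  have hx1 : Good α (h * x * h⁻¹) := S.pair.good_conj hx (by
    rw [map_mul, map_mul, map_inv, hh, hx.fix])
  set a₁ := h * a * h⁻¹ with ha₁
  set x₁ := h * x * h⁻¹ with hx₁
  set s₁ := v * σ * v⁻¹ with hs₁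
  have hprod : a₁ * x₁ = s₁ := by rw [← hhs', ha₁, hx₁]; group
  obtain ⟨z, hz, -, hza⟩ := S.exists_adm hσ hg ha1 (hnc a₁ ha1)
  have hvz : Commute v z := hvc z hz.2.1 hz.2.2.1
  have hσz : Commute σ z := hz.2.2.1.symm
  have hsz : Commute s₁ z := (hvz.mul_left hσz).mul_left hvz.inv_left
  have haz : Commute a₁ z := hza.symm
  have hxz : Commute x₁ z := by
    have : x₁ = a₁⁻¹ * s₁ := by rw [← hprod]; group
    rw [this]
    exact haz.inv_left.mul_left hsz
  have hc1 : a₁ * x₁ = x₁ * a₁ := by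
    rw [ha₁, hx₁]
    calc h * a * h⁻¹ * (h * x * h⁻¹) = h * (a * x) * h⁻¹ := by group
      _ = h * (x * a) * h⁻¹ := by rw [hax]
      _ = h * x * h⁻¹ * (h * a * h⁻¹) := by group
  obtain ⟨k, c, hk, -, hc, heq⟩ := exists_fix_mul_of_four (odd_Oz z) (mul_self_eq_one ha1.1)
    (mul_self_eq_one hx1.1) hc1 (fun y hy => Oz_conj haz.eq hy) (fun y hy => Oz_conj hxz.eq hy)
    (fun y _ => ha1.2 y) (fun y _ => hx1.2 y) ((Oz z).inv_mem (hvO z hz))
  rw [hprod] at hc
  have hσeq : σ = k * s₁ * k⁻¹ := by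
    calc σ = v⁻¹ * s₁ * v⁻¹⁻¹ := by rw [hs₁]; group
      _ = k * (c * s₁) * c⁻¹ * k⁻¹ := by rw [heq]; group
      _ = k * s₁ * k⁻¹ := by rw [hc]; group
  apply hg
  rw [hσeq, map_mul, map_mul, map_inv, hk, hv]

/-- An involution commuting with two commuting good involutions is good. -/
theorem Setup.good_of_edge (S : Setup α r) {a x z : X} (ha : Good α a) (hx : Good α x)
    (hax : a * x = x * a) (hne : a ≠ x) (hz : orderOf z = 2) (haz : a * z = z * a)
    (hxz : x * z = z * x) : Good α z :=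
  S.edge_good ha hx hax (S.good_mul ha hx hax hne) hz haz hxz

/-- A good involution of a Sylow 2-subgroup commutes with another one there. -/
theorem Setup.exists_partner (S : Setup α r) (P : Sylow 2 X) {a : X} (ha : Good α a)
    (haP : a ∈ (P : Subgroup X)) :
    ∃ x ∈ (P : Subgroup X), Good α x ∧ a * x = x * a ∧ a ≠ x := by
  haveI : Fact (Nat.Prime 2) := ⟨Nat.prime_two⟩
  have key : ∀ n (g : X), g * a * g⁻¹ ∈ (P : Subgroup X) → g * a * g⁻¹ ≠ a →
      orderOf (a * (g * a * g⁻¹)) = n →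
      ∃ x ∈ (P : Subgroup X), Good α x ∧ a * x = x * a ∧ a ≠ x := by
    intro n
    induction n using Nat.strong_induction_on with
    | _ n ih =>
      intro g hgP hne hn
      by_cases hc : a * (g * a * g⁻¹) = g * a * g⁻¹ * a
      · exact ⟨_, hgP, S.pair.good_conj ha (ha.2 _ hc.symm), hc, Ne.symm hne⟩
      set b := g * a * g⁻¹ with hb
      have hb2 : orderOf b = 2 := (orderOf_conj g a).trans ha.1
      have hab : orderOf (a * b) ≠ 1 := fun h => hne
        ((orderOf_mul_eq_one_iff hb2).1 (orderOf_eq_one_iff.1 h)).symm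
      obtain ⟨k, hk⟩ := IsPGroup.iff_orderOf.1 P.isPGroup'
        ⟨a * b, (P : Subgroup X).mul_mem haP hgP⟩
      rw [Subgroup.orderOf_mk] at hk
      have h2dvd : 2 ∣ orderOf (a * b) := by
        rcases k with _ | k
        · exact absurd (by simpa using hk) hab
        · exact ⟨2 ^ k, by rw [hk, pow_succ']⟩
      have hbg : (b * a) * a * (b * a)⁻¹ = b * a * b := by
        rw [mul_assoc b a a, mul_self_eq_one ha.1, mul_one, mul_inv_rev, inv_eq_self ha.1,
          inv_eq_self hb2, ← mul_assoc]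
      refine ih (orderOf ((a * b) ^ 2)) ?_ (b * a) ?_ ?_ ?_
      · rw [← hn, orderOf_pow' _ (by norm_num), Nat.gcd_eq_right h2dvd]
        exact Nat.div_lt_self (orderOf_pos _) (by norm_num)
      · rw [hbg]
        exact mul_mem (mul_mem hgP haP) hgP
      · rw [hbg]
        intro h
        apply hc
        calc a * b = b * a * b * b := by rw [h]
          _ = b * a := by rw [mul_assoc, mul_self_eq_one hb2, mul_one]
      · rw [hbg, pow_two]
        group
  by_cases h : ∃ g, g * a * g⁻¹ ∈ (P : Subgroup X) ∧ g * a * g⁻¹ ≠ a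
  · obtain ⟨g, h1, h2⟩ := h
    exact key _ g h1 h2 rfl
  · exfalso
    push Not at h
    have hc := CfsgLib.Involutions.mem_center_of_isolated P ha.1 h S.core
    obtain ⟨g, hg⟩ := S.not_central ha.1 ha.fix
    exact hg (Subgroup.mem_center_iff.1 hc g)

/-- Every fixed involution commutes with a good involution. -/
theorem Setup.exists_good_commute (S : Setup α r) {u : X} (hu : orderOf u = 2) (hfu : α u = u) :
    ∃ z, Good α z ∧ z * u = u * z := by
  haveI : Fact (Nat.Prime 2) := ⟨Nat.prime_two⟩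
  obtain ⟨a, ha⟩ := S.exists_good
  set H := fixedSubgroup α
  obtain ⟨T, hT⟩ := (CfsgLib.TwoGroupTricks.isPGroup_zpowers (p := 2) (x := (⟨u, hfu⟩ : H))
    ⟨1, by rw [← Subgroup.orderOf_coe, pow_one]; exact hu⟩
    ).exists_le_sylow
  obtain ⟨T₀, hT₀⟩ := (CfsgLib.TwoGroupTricks.isPGroup_zpowers (p := 2) (x := (⟨a, ha.fix⟩ : H))
    ⟨1, by rw [← Subgroup.orderOf_coe, pow_one]; exact ha.1⟩
    ).exists_le_sylow
  obtain ⟨c, hc⟩ := MulAction.exists_smul_eq H T₀ T
  have haT : c * ⟨a, ha.fix⟩ * c⁻¹ ∈ (T : Subgroup H) := by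
    rw [← hc, Sylow.coe_subgroup_smul]
    exact Subgroup.smul_mem_pointwise_smul _ _ _ (hT₀ (Subgroup.mem_zpowers _))
  obtain ⟨P, hP⟩ := (T.isPGroup'.map H.subtype).exists_le_sylow
  have huP : u ∈ (P : Subgroup X) := hP ⟨_, hT (Subgroup.mem_zpowers _), rfl⟩
  have haP : (c : X) * a * (c : X)⁻¹ ∈ (P : Subgroup X) := hP ⟨_, haT, rfl⟩
  have hfc : α (c : X) = c := c.2
  have ha' : Good α ((c : X) * a * (c : X)⁻¹) := S.pair.good_conj ha (by
    rw [map_mul, map_mul, map_inv, hfc, ha.fix])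
  obtain ⟨x, hxP, hx, hax, hne⟩ := S.exists_partner P ha' haP
  haveI : Nontrivial (P : Subgroup X) :=
    ⟨⟨⟨u, huP⟩, 1, fun h => ne_one hu (congrArg Subtype.val h)⟩⟩
  haveI : Nontrivial (Subgroup.center (P : Subgroup X)) := P.isPGroup'.center_nontrivial
  obtain ⟨z, hz⟩ := exists_prime_orderOf_dvd_card' (G := Subgroup.center (P : Subgroup X)) 2 (by
    obtain ⟨k, hk⟩ := (P.isPGroup'.to_subgroup (Subgroup.center (P : Subgroup X))).exists_card_eq
    have h1 := Finite.one_lt_card (α := Subgroup.center (P : Subgroup X))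
    rcases k with _ | k
    · rw [hk, pow_zero] at h1; omega
    · exact hk ▸ dvd_pow_self 2 (Nat.succ_ne_zero k))
  rw [← Subgroup.orderOf_coe, ← Subgroup.orderOf_coe] at hz
  have hzc : ∀ y ∈ (P : Subgroup X), y * ((z : (P : Subgroup X)) : X) =
      ((z : (P : Subgroup X)) : X) * y :=
    fun y hy => congrArg Subtype.val (Subgroup.mem_center_iff.1 z.2 ⟨y, hy⟩)
  exact ⟨_, S.good_of_edge ha' hx hax hne hz (hzc _ haP) (hzc _ hxP), (hzc u huP).symm⟩

/-- Every fixed involution is good. -/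
theorem Setup.good_of_fixed (S : Setup α r) {s : X} (hs : orderOf s = 2) (hfs : α s = s) :
    Good α s := by
  by_contra hns
  haveI : Fact (Nat.Prime 2) := ⟨Nat.prime_two⟩
  obtain ⟨g, hg⟩ := S.exists_moved_conj hs
  set σ := g * s * g⁻¹ with hσdef
  have hσ : orderOf σ = 2 := (orderOf_conj g _).trans hs
  have hconj : IsConj σ s := (isConj_iff.2 ⟨g, rfl⟩ : IsConj s σ).symm
  have hnc : ∀ b, Good α b → ¬ IsConj b σ := fun b hb h =>
    hns (S.pair.good_of_isConj hb hfs (h.trans hconj))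
  obtain ⟨b₀, hb₀, -⟩ := S.exists_good_commute hs hfs
  obtain ⟨z₀, hz₀, -, -⟩ := S.exists_adm hσ hg hb₀ (hnc b₀ hb₀)
  obtain ⟨v, hv, hvc, -⟩ := S.exists_fixed_conj hσ hz₀
  set s₁ := v * σ * v⁻¹ with hs₁
  have hs₁2 : orderOf s₁ = 2 := (orderOf_conj v _).trans hσ
  have hns₁ : ¬ Good α s₁ := fun h => hns (S.pair.good_of_isConj h hfs
    ((isConj_iff.2 ⟨v, rfl⟩ : IsConj σ s₁).symm.trans hconj))
  obtain ⟨a, ha, has⟩ := S.exists_good_commute hs₁2 hv
  -- a partner of `a` commuting with it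
  obtain ⟨P, hP⟩ := (CfsgLib.TwoGroupTricks.isPGroup_zpowers (p := 2) (x := a)
    ⟨1, by rw [pow_one]; exact ha.1⟩).exists_le_sylow
  obtain ⟨x, -, hx, hax, hne⟩ := S.exists_partner P ha (hP (Subgroup.mem_zpowers a))
  obtain ⟨z, hz, hnz, hzx⟩ := S.exists_adm hσ hg hx (hnc x hx)
  have hvz : Commute v z := hvc z hz.2.1 hz.2.2.1
  have hσz : Commute σ z := hz.2.2.1.symm
  have hsz : Commute s₁ z := (hvz.mul_left hσz).mul_left hvz.inv_left
  have hnaz : ¬ IsConj a z := fun h => hnz (S.pair.good_of_isConj ha hz.2.1 h)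
  obtain ⟨w, hw, hwa, -, hwmem⟩ := exists_commuting_involution ha.1 hz.1 hnaz
  obtain ⟨k, hk⟩ := Subgroup.mem_zpowers_iff.1 hwmem
  have hxw : Commute x w := by
    rw [← hk]
    exact ((show Commute x a from hax.symm).mul_right (show Commute x z from hzx.symm)).zpow_right k
  have hsw : Commute s₁ w := by
    rw [← hk]
    exact ((show Commute s₁ a from has.symm).mul_right hsz).zpow_right k
  by_cases hwa' : w = a
  · refine hnz (S.good_of_edge ha hx hax hne hz.1 ?_ hzx.symm)
    have h : Commute (a * z) a := by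
      have h1 : Commute w a := hwa
      rw [hwa'] at hk
      have h2 := (Commute.refl (a * z)).zpow_right k
      rwa [hk] at h2
    have h' : a * z * a = a * (a * z) := h.eq
    exact (mul_left_cancel ((mul_assoc a z a).symm.trans h')).symm
  · have hwg : Good α w := S.good_of_edge ha hx hax hne hw hwa.symm hxw.eq
    exact hns₁ (S.good_of_edge ha hwg hwa.symm (Ne.symm hwa') hs₁2 has hsw.symm.eq)

/-- The fixed subgroup is strongly embedded. -/
theorem Setup.isStronglyEmbedded (S : Setup α r) :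
    Cfsg.IsStronglyEmbedded (fixedSubgroup α) := by
  obtain ⟨a, ha⟩ := S.exists_good
  refine ⟨fun h => ?_, ?_, fun g hg => ?_⟩
  · obtain ⟨g, hg⟩ := S.moved
    exact hg (mem_fixedSubgroup.1 (h ▸ Subgroup.mem_top g))
  · rw [even_iff_two_dvd, ← ha.1]
    exact Subgroup.orderOf_dvd_natCard _ (mem_fixedSubgroup.2 ha.fix)
  · rw [← Nat.not_even_iff_odd]
    intro he
    haveI : Fact (Nat.Prime 2) := ⟨Nat.prime_two⟩
    obtain ⟨⟨t, ht1, t', ht', rfl⟩, ht⟩ := exists_prime_orderOf_dvd_card'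
      (G := ↥(fixedSubgroup α ⊓ (fixedSubgroup α).map (MulAut.conj g).toMonoidHom)) 2
      (even_iff_two_dvd.1 he)
    have ht'2 : orderOf t' = 2 := by
      rw [← Subgroup.orderOf_coe] at ht
      rw [← orderOf_conj g t']; exact ht
    exact hg (S.pair.fix_of_conj_fix (S.good_of_fixed ht'2 ht') ht1)

/-- There is no minimal counterexample. -/
theorem Setup.contradiction (S : Setup α r) : False := by
  haveI : Fact (Nat.Prime 2) := ⟨Nat.prime_two⟩
  set H := fixedSubgroup α with hH
  have hSE : Cfsg.IsStronglyEmbedded H := S.isStronglyEmbedded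
  obtain ⟨a, ha⟩ := S.exists_good
  obtain ⟨g₀, hg₀⟩ := S.exists_moved_conj ha.1
  set u := g₀ * a * g₀⁻¹ with hudef
  have hu : orderOf u = 2 := (orderOf_conj g₀ a).trans ha.1
  have huH : u ∉ H := hg₀
  have hαu : orderOf (α u) = 2 := by rw [MulEquiv.orderOf_eq, hu]
  -- `u` and `α u` fix different points
  obtain ⟨y, hy⟩ := CfsgLib.TwoFusion.exists_fixed_point hSE hu
  obtain ⟨c, rfl⟩ := QuotientGroup.mk_surjective y
  have hcu : α (c⁻¹ * u * c) = c⁻¹ * u * c := (CfsgLib.TwoFusion.smul_mk_eq_iff u c).1 hy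
  have hne : α u • (QuotientGroup.mk c : X ⧸ H) ≠ QuotientGroup.mk c := by
    intro h
    have h1 : α u • (QuotientGroup.mk (α c) : X ⧸ H) = QuotientGroup.mk (α c) := by
      rw [CfsgLib.TwoFusion.smul_mk_eq_iff]
      have : (α c)⁻¹ * α u * α c = c⁻¹ * u * c := by
        rw [← map_inv, ← map_mul, ← map_mul, hcu]
      rw [this]
      exact hcu
    have h2 := CfsgLib.TwoFusion.fix_unique hSE hαu h h1
    rw [QuotientGroup.eq] at h2
    have hc : α c = c := S.pair.eq_of_fix h2
    apply hg₀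
    have h3 := hcu
    rw [map_mul, map_mul, map_inv, hc] at h3
    exact mul_left_cancel (a := c⁻¹) (mul_right_cancel h3)
  have hodd : Odd (orderOf (u * α u)) := CfsgLib.TwoFusion.odd_orderOf_mul hSE hu hαu hy hne
  -- the two-point stabilizer and its normalizer
  set D₀ : Subgroup X := H ⊓ H.map (MulAut.conj u).toMonoidHom with hD₀
  have hmemD : ∀ x, x ∈ D₀ ↔ α x = x ∧ α (u * x * u) = u * x * u := by
    intro x
    have hui : u⁻¹ = u := inv_eq_self hu
    rw [hD₀, Subgroup.mem_inf]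
    refine and_congr mem_fixedSubgroup ⟨?_, fun h => ⟨u * x * u, h, ?_⟩⟩
    · rintro ⟨w, hw, rfl⟩
      have : u * (MulAut.conj u).toMonoidHom w * u = w := by
        show u * (u * w * u⁻¹) * u = w
        rw [hui]
        calc u * (u * w * u) * u = (u * u) * w * (u * u) := by group
          _ = w := by rw [mul_self_eq_one hu, one_mul, mul_one]
      rw [this]; exact hw
    · show u * (u * x * u) * u⁻¹ = x
      rw [hui]
      calc u * (u * x * u) * u = (u * u) * x * (u * u) := by group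
        _ = x := by rw [mul_self_eq_one hu, one_mul, mul_one]
  have hD₀odd : Odd (Nat.card D₀) := hSE.2.2 u huH
  set N : Subgroup X := Subgroup.normalizer (D₀ : Set X) with hN
  have hmemN : ∀ g, (∀ x ∈ D₀, g * x * g⁻¹ ∈ D₀) → g ∈ N := by
    intro g hg
    refine Subgroup.mem_normalizer_iff.2 fun x => ⟨hg x, fun hx => ?_⟩
    have hinj : Function.Injective (fun y : D₀ => (⟨g * (y : X) * g⁻¹, hg y y.2⟩ : D₀)) := by
      intro y z h
      exact Subtype.ext (mul_left_cancel (mul_right_cancel (congrArg Subtype.val h)))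
    obtain ⟨⟨y, hy⟩, hyx⟩ := (Finite.injective_iff_surjective.1 hinj) ⟨_, hx⟩
    have : y = x := mul_left_cancel (mul_right_cancel (congrArg Subtype.val hyx))
    exact this ▸ hy
  have hαN : ∀ g ∈ N, α g ∈ N := by
    intro g hg
    refine hmemN _ fun x hx => ?_
    have h1 := (Subgroup.mem_normalizer_iff.1 hg x).1 hx
    have h2 : α g * x * (α g)⁻¹ = g * x * g⁻¹ := by
      have := ((hmemD _).1 h1).1
      rwa [map_mul, map_mul, map_inv, ((hmemD _).1 hx).1] at this
    rw [h2]; exact h1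
  have huN : u ∈ N := by
    refine hmemN _ fun x hx => ?_
    obtain ⟨h1, h2⟩ := (hmemD x).1 hx
    rw [inv_eq_self hu]
    refine (hmemD _).2 ⟨h2, ?_⟩
    rw [show u * (u * x * u) * u = (u * u) * x * (u * u) by group, mul_self_eq_one hu, one_mul,
      mul_one, h1]
  obtain ⟨m, hm⟩ := hodd
  set d := (u * α u) ^ (m : ℤ) with hd
  have hdN : d ∈ N := zpow_mem (mul_mem huN (hαN u huN)) _
  have hdu : d * u * d⁻¹ = α u := by
    rw [hd, conj_left_by_zpow hu hαu]
    conv_rhs => rw [right_eq_zpow_mul hu hαu]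
    congr 1
    rw [← orderOf_dvd_sub_iff_zpow_eq_zpow, hm]
    simp
  letI : MulAction N X :=
    MulAction.compHom X ((ConjAct.toConjAct : X ≃* ConjAct X).toMonoidHom.comp N.subtype)
  have hsmul : ∀ (v : N) (y : X), v • y = (v : X) * y * (v : X)⁻¹ := fun v y => rfl
  set O : Set X := MulAction.orbit N u
  have hcard : Nat.card O ∣ Nat.card X := by
    rw [Nat.card_coe_set_eq, ← MulAction.index_stabilizer]
    exact (Subgroup.index_dvd_card _).trans (Subgroup.card_subgroup_dvd_card N)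
  obtain ⟨u', ⟨v, hv⟩, hfu'⟩ := S.pair.exists_fixed O (by
    rintro _ ⟨v, rfl⟩
    refine ⟨⟨α (v : X) * d, N.mul_mem (hαN _ v.2) hdN⟩, ?_⟩
    simp only [hsmul, map_mul, map_inv, ← hdu]
    group) (S.pair.not_dvd_of_dvd_card hcard)
  replace hv : (v : X) * u * (v : X)⁻¹ = u' := hv
  have hu'2 : orderOf u' = 2 := by rw [← hv, orderOf_conj, hu]
  have hu'N : u' ∈ N := by
    rw [← hv]
    exact mul_mem (mul_mem v.2 huN) (inv_mem v.2)
  -- every fixed involution is in `u' D₀`
  set x₀ : X ⧸ H := QuotientGroup.mk 1 with hx₀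
  have hux₀ : u • x₀ ≠ x₀ := fun h => huH (by
    have := (CfsgLib.TwoFusion.smul_mk_eq_iff u 1).1 h
    simpa using this)
  have hfixing : ∀ t, orderOf t = 2 → α t = t →
      t ∈ CfsgLib.TwoFusion.fixingInvolutions H x₀ := by
    intro t ht hft
    refine ⟨ht, (CfsgLib.TwoFusion.smul_mk_eq_iff t 1).2 ?_⟩
    simpa [hH] using hft
  have hcoset : ∀ t, orderOf t = 2 → α t = t → t * u' ∈ D₀ := by
    intro t ht hft
    obtain ⟨e, he1, he2, he3⟩ := CfsgLib.TwoFusion.exists_conj_in_two_point_stabilizer hSE hu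
      hux₀ (hfixing u' hu'2 hfu') (hfixing t ht hft)
    have heD : e ∈ D₀ := by
      have h1 : α e = e := by
        simpa [hH] using (CfsgLib.TwoFusion.smul_mk_eq_iff e 1).1 he1
      refine (hmemD e).2 ⟨h1, ?_⟩
      rw [hx₀, MulAction.Quotient.smul_mk] at he2
      have := (CfsgLib.TwoFusion.smul_mk_eq_iff e (u • (1 : X))).1 (by simpa using he2)
      simpa [hH, smul_eq_mul, inv_eq_self hu] using this
    have h2 := (Subgroup.mem_normalizer_iff.1 hu'N e⁻¹).1 (D₀.inv_mem heD)
    rw [← he3]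
    have : e * u' * e⁻¹ * u' = e * (u' * e⁻¹ * u'⁻¹) := by rw [inv_eq_self hu'2]; group
    rw [this]
    exact mul_mem heD h2
  obtain ⟨P, hP⟩ := (CfsgLib.TwoGroupTricks.isPGroup_zpowers (p := 2) (x := a)
    ⟨1, by rw [pow_one]; exact ha.1⟩).exists_le_sylow
  obtain ⟨x, -, hx, hax, hne'⟩ := S.exists_partner P ha (hP (Subgroup.mem_zpowers a))
  have hmem : a * x ∈ D₀ := by
    have := mul_mem (hcoset a ha.1 ha.fix) (D₀.inv_mem (hcoset x hx.1 hx.fix))
    rwa [mul_inv_rev, mul_assoc, ← mul_assoc u', mul_inv_cancel, one_mul, inv_eq_self hx.1] at this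
  have h2 := Subgroup.orderOf_dvd_natCard D₀ hmem
  rw [orderOf_mul_eq_two ha.1 hx.1 hax hne'] at h2
  exact Nat.not_even_iff_odd.2 hD₀odd (even_iff_two_dvd.2 h2)

/-- An automorphism of prime order, coprime to the group order, fixing the centralizer of an
involution elementwise acts trivially modulo the odd core. -/
theorem concl_all : ∀ (n : ℕ) (X : Type u) [Group X] [Finite X], Nat.card X = n → Concl X := by
  intro n
  induction n using Nat.strong_induction_on with
  | _ n ih =>
    intro X _ _ hn α r a hp ha g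
    have hO : (Cfsg.oddCore X).map (α : X ≃* X).toMonoidHom = Cfsg.oddCore X :=
      Subgroup.characteristic_iff_map_eq.1 (CfsgLib.Cores.pPrimeCore_characteristic 2 X) α
    by_cases hbot : Cfsg.oddCore X = ⊥
    · by_cases hfix : ∀ g, α g = g
      · simp [hfix g]
      · push Not at hfix
        exact (Setup.contradiction (α := α) (r := r) ⟨hp, ⟨a, ha⟩, hbot,
          fun Y _ _ hY => ih _ (hn ▸ hY) Y rfl, hfix⟩).elim
    · have hcard : Nat.card (X ⧸ Cfsg.oddCore X) < n := by
        have h1 := (Cfsg.oddCore X).card_eq_card_quotient_mul_card_subgroup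
        have h2 : 1 < Nat.card (Cfsg.oddCore X) := (Cfsg.oddCore X).one_lt_card_iff_ne_bot.2 hbot
        have h3 : 0 < Nat.card (X ⧸ Cfsg.oddCore X) := Nat.card_pos
        nlinarith
      have haO : a ∉ Cfsg.oddCore X := fun h =>
        Nat.not_even_iff_odd.2 CfsgLib.Cores.odd_card_oddCore
          (even_iff_two_dvd.2 (ha.1 ▸ Subgroup.orderOf_dvd_natCard _ h))
      have hgood : Good (quotientAut α (Cfsg.oddCore X) hO) (a : X ⧸ Cfsg.oddCore X) := by
        refine ⟨orderOf_eq_two_iff.2 ⟨?_, ?_⟩, fun q hq => ?_⟩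
        · rw [← QuotientGroup.mk_mul, mul_self_eq_one ha.1, QuotientGroup.mk_one]
        · rwa [Ne, QuotientGroup.eq_one_iff]
        · induction q using QuotientGroup.induction_on with
          | H g =>
            rw [← QuotientGroup.mk_mul, ← QuotientGroup.mk_mul, eq_comm, QuotientGroup.eq] at hq
            have hmem : a * (g * a * g⁻¹) ∈ Cfsg.oddCore X := by
              have h := (inferInstance : (Cfsg.oddCore X).Normal).conj_mem _ hq g
              have e : g * ((a * g)⁻¹ * (g * a)) * g⁻¹ = a * (g * a * g⁻¹) := by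
                rw [mul_inv_rev, inv_eq_self ha.1]
                group
              rw [e] at h
              exact h
            obtain ⟨d, hd, hd'⟩ := exists_conj_mem_of_mul_mem CfsgLib.Cores.odd_card_oddCore ha.1
              ((orderOf_conj g a).trans ha.1) hmem
            have hc : α (d⁻¹ * g) = d⁻¹ * g := ha.2 _ (by
              calc d⁻¹ * g * a = d⁻¹ * (g * a * g⁻¹) * g := by group
                _ = d⁻¹ * (d * a * d⁻¹) * g := by rw [hd']
                _ = a * (d⁻¹ * g) := by group)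
            have e : g = d * (d⁻¹ * g) := by group
            have e' : α g = α d * (d⁻¹ * g) := by
              conv_lhs => rw [e, map_mul, hc]
            have h1 : α d ∈ Cfsg.oddCore X := hO.le (Subgroup.mem_map_of_mem _ hd)
            rw [quotientAut_mk, e', QuotientGroup.mk_mul, QuotientGroup.mk_mul,
              QuotientGroup.mk_inv, (QuotientGroup.eq_one_iff d).2 hd,
              (QuotientGroup.eq_one_iff _).2 h1, inv_one, one_mul, one_mul]
      have hq := ih _ hcard (X ⧸ Cfsg.oddCore X) rfl _ r _ (hp.quotient _ hO) hgood g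
      rw [show Cfsg.oddCore (X ⧸ Cfsg.oddCore X) = ⊥ from
        CfsgLib.Cores.pPrimeCore_quotient_pPrimeCore 2, Subgroup.mem_bot, quotientAut_mk,
        ← QuotientGroup.mk_inv, ← QuotientGroup.mk_mul, QuotientGroup.eq_one_iff] at hq
      exact hq

end CfsgLib.CoprimeInvCent
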