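import Cfsg.Agent.Lib.CoprimeInvCent.Basic
import Cfsg.Agent.Lib.Cores.PCore

/-!
The minimal-counterexample setup for "a coprime automorphism fixing the centralizer of an
involution is trivial modulo the odd core".
-/

set_option autoImplicit false
set_option linter.unusedSectionVars false

namespace CfsgLib.CoprimeInvCent

open CfsgLib.Involutions

universe u

/-- The conclusion for one group. -/
def Concl (Y : Type u) [Group Y] : Prop :=
  ∀ (α : MulAut Y) (r : ℕ) (a : Y), CoprimePair α r → Good α a →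
    ∀ g, g⁻¹ * α g ∈ Cfsg.oddCore Y

variable {X : Type u} [Group X] [Finite X]

/-- A minimal counterexample with trivial odd core. -/
structure Setup (α : MulAut X) (r : ℕ) : Prop where
  pair : CoprimePair α r
  exists_good : ∃ a, Good α a
  core : Cfsg.oddCore X = ⊥
  ih : ∀ (Y : Type u) [Group Y] [Finite Y], Nat.card Y < Nat.card X → Concl Y
  moved : ∃ g, α g ≠ g

variable {α : MulAut X} {r : ℕ}

theorem eq_one_of_odd_normal {K : Subgroup X} (hK : K.Normal) (hodd : Odd (Nat.card K))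
    (hcore : Cfsg.oddCore X = ⊥) {x : X} (hx : x ∈ K) : x = 1 := by
  haveI := hK
  have := CfsgLib.Cores.le_oddCore (N := K) hodd hx
  rwa [hcore, Subgroup.mem_bot] at this

theorem odd_card_of_pow_eq_one {K : Subgroup X} {n : ℕ} (hn : Odd n)
    (h : ∀ x ∈ K, x ^ n = 1) : Odd (Nat.card K) := by
  rw [← Nat.not_even_iff_odd]
  intro he
  haveI : Fact (Nat.Prime 2) := ⟨Nat.prime_two⟩
  obtain ⟨x, hx⟩ := exists_prime_orderOf_dvd_card' (G := K) 2 (even_iff_two_dvd.1 he)
  rw [← Subgroup.orderOf_coe] at hx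
  have h1 : 2 ∣ n := hx ▸ orderOf_dvd_of_pow_eq_one (h x x.2)
  exact Nat.not_even_iff_odd.2 hn (even_iff_two_dvd.2 h1)

/-- No nontrivial normal subgroup is fixed elementwise. -/
theorem Setup.no_fixed_normal (S : Setup α r) (N : Subgroup X) [hNn : N.Normal] (hN : N ≠ ⊥)
    (hNH : ∀ n ∈ N, α n = n) : False := by
  obtain ⟨a, ha⟩ := S.exists_good
  obtain ⟨g₀, hg₀⟩ := S.moved
  by_cases haN : a ∈ N
  · exact hg₀ (S.pair.fix_of_conj_fix ha (hNH _ (hNn.conj_mem a haN g₀)))
  have hmap : N.map (α : X ≃* X).toMonoidHom = N := by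
    ext x
    constructor
    · rintro ⟨n, hn, rfl⟩
      show α n ∈ N
      rw [hNH n hn]; exact hn
    · intro hx
      exact ⟨x, hx, hNH x hx⟩
  have hcard : Nat.card (X ⧸ N) < Nat.card X := by
    have h1 := N.card_eq_card_quotient_mul_card_subgroup
    have h2 : 1 < Nat.card N := N.one_lt_card_iff_ne_bot.2 hN
    have h3 : 0 < Nat.card (X ⧸ N) := Nat.card_pos
    nlinarith
  have hgood : Good (quotientAut α N hmap) (a : X ⧸ N) := by
    refine ⟨orderOf_eq_two_iff.2 ⟨?_, ?_⟩, fun q hq => ?_⟩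
    · rw [← QuotientGroup.mk_mul, mul_self_eq_one ha.1, QuotientGroup.mk_one]
    · rwa [Ne, QuotientGroup.eq_one_iff]
    · induction q using QuotientGroup.induction_on with
      | H g =>
        rw [← QuotientGroup.mk_mul, ← QuotientGroup.mk_mul, eq_comm, QuotientGroup.eq] at hq
        have hfix : α (g⁻¹ * a * g⁻¹⁻¹) = g⁻¹ * a * g⁻¹⁻¹ := by
          have e : g⁻¹ * a * g⁻¹⁻¹ = a * ((a * g)⁻¹ * (g * a))⁻¹ := by
            simp [mul_assoc]
          rw [e, map_mul, ha.fix, hNH _ (N.inv_mem hq)]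
        have := S.pair.fix_of_conj_fix ha hfix
        rw [map_inv, inv_inj] at this
        rw [quotientAut_mk, this]
  have hq := S.ih (X ⧸ N) hcard _ r _ (S.pair.quotient N hmap) hgood
  set M : Subgroup X := (Cfsg.oddCore (X ⧸ N)).comap (QuotientGroup.mk' N) with hM
  set L : Subgroup X := M ⊓ Subgroup.centralizer (N : Set X) with hL
  haveI : (Cfsg.oddCore (X ⧸ N)).Normal := inferInstance
  haveI hMn : M.Normal := hM ▸ Subgroup.Normal.comap (inferInstance) _
  have hLn : ∀ x ∈ L, ∀ g : X, g * x * g⁻¹ ∈ L := by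
    intro x hx g
    refine ⟨hMn.conj_mem x hx.1 g, Subgroup.mem_centralizer_iff.2 fun n hn => ?_⟩
    have := Subgroup.mem_centralizer_iff.1 hx.2 (g⁻¹ * n * g⁻¹⁻¹) (hNn.conj_mem n hn g⁻¹)
    calc n * (g * x * g⁻¹) = g * (g⁻¹ * n * g⁻¹⁻¹ * x) * g⁻¹ := by group
      _ = g * (x * (g⁻¹ * n * g⁻¹⁻¹)) * g⁻¹ := by rw [this]
      _ = g * x * g⁻¹ * n := by group
  have hk : ∀ g : X, g⁻¹ * α g ∈ L := by
    intro g
    refine ⟨?_, Subgroup.mem_centralizer_iff.2 fun n hn => ?_⟩
    · show ((g⁻¹ * α g : X) : X ⧸ N) ∈ Cfsg.oddCore (X ⧸ N)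
      rw [QuotientGroup.mk_mul, QuotientGroup.mk_inv, ← quotientAut_mk α N hmap]
      exact hq g
    · have h1 := hNH _ (hNn.conj_mem n hn g)
      rw [map_mul, map_mul, map_inv, hNH n hn] at h1
      calc n * (g⁻¹ * α g) = g⁻¹ * (g * n * g⁻¹) * α g := by group
        _ = g⁻¹ * (α g * n * (α g)⁻¹) * α g := by rw [h1]
        _ = g⁻¹ * α g * n := by group
  -- the subgroup `N ∩ L` is central in `L`, of odd index
  set NL : Subgroup L := N.subgroupOf L with hNL
  haveI : NL.Normal := hNL ▸ hNn.subgroupOf L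
  have hodd : Odd NL.index := by
    let f : L →* X ⧸ N := (QuotientGroup.mk' N).comp L.subtype
    have hker : f.ker = NL := by
      ext x
      simp [f, NL, MonoidHom.mem_ker, Subgroup.mem_subgroupOf]
    rw [← hker, Subgroup.index_ker]
    refine CfsgLib.Cores.odd_card_oddCore.of_dvd_nat (Subgroup.card_dvd_of_le ?_)
    rintro _ ⟨x, rfl⟩
    exact x.2.1
  have hcent : NL ≤ Subgroup.center L := by
    intro x hx
    rw [Subgroup.mem_center_iff]
    intro y
    exact Subtype.ext (Subgroup.mem_centralizer_iff.1 y.2.2 x hx).symm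
  have hzodd : Odd (Subgroup.center L).index :=
    hodd.of_dvd_nat (Subgroup.index_dvd_of_le hcent)
  -- transfer into the center is injective
  set T := MonoidHom.transferCenterPow L
  have hT : ∀ x : L, T x = 1 → x = 1 := by
    intro x hx
    have hmem : ∀ y, y ∈ T.ker.map L.subtype ↔ y ∈ L ∧ y ^ (Subgroup.center L).index = 1 := by
      intro y
      constructor
      · rintro ⟨z, hz, rfl⟩
        exact ⟨z.2, congrArg (fun w : Subgroup.center L => ((w : L) : X)) (MonoidHom.mem_ker.1 hz)⟩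
      · rintro ⟨hy, hy1⟩
        exact ⟨⟨y, hy⟩, MonoidHom.mem_ker.2 (Subtype.ext (Subtype.ext hy1)), rfl⟩
    have hKn : (T.ker.map L.subtype).Normal := ⟨fun y hy g => by
      obtain ⟨h1, h2⟩ := (hmem y).1 hy
      refine (hmem _).2 ⟨hLn y h1 g, ?_⟩
      rw [conj_pow, h2, mul_one, mul_inv_cancel]⟩
    exact Subtype.ext (eq_one_of_odd_normal hKn
      (odd_card_of_pow_eq_one hzodd fun y hy => ((hmem y).1 hy).2) S.core
      ⟨x, MonoidHom.mem_ker.2 hx, rfl⟩)
  have hcomm : ∀ x ∈ L, ∀ y ∈ L, Commute x y := by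
    intro x hx y hy
    have h1 : T (⟨x, hx⟩ * ⟨y, hy⟩) = T (⟨y, hy⟩ * ⟨x, hx⟩) := by
      rw [map_mul, map_mul]
      exact Subtype.ext (Subgroup.mem_center_iff.1 (T _).2 _).symm
    have h2 := (injective_iff_map_eq_one T).2 hT h1
    exact congrArg Subtype.val h2
  -- elements of exponent dividing the index form a normal subgroup of odd order
  let K : Subgroup X :=
    { carrier := {x | x ∈ L ∧ x ^ NL.index = 1}
      one_mem' := ⟨L.one_mem, one_pow _⟩
      mul_mem' := fun {x y} hx hy => ⟨L.mul_mem hx.1 hy.1, by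
        rw [(hcomm x hx.1 y hy.1).mul_pow, hx.2, hy.2, one_mul]⟩
      inv_mem' := fun {x} hx => ⟨L.inv_mem hx.1, by rw [inv_pow, hx.2, inv_one]⟩ }
  have hK : K.Normal := ⟨fun x hx g => ⟨hLn x hx.1 g, by
    rw [conj_pow, hx.2, mul_one, mul_inv_cancel]⟩⟩
  set k := g₀⁻¹ * α g₀ with hkdef
  have hkN : k ^ NL.index ∈ N := NL.pow_index_mem (⟨k, hk g₀⟩ : L)
  have hαk : α k ∈ L := by
    rw [hkdef, map_mul, map_inv]
    exact hk (α g₀)
  have hfix : k⁻¹ * α k = 1 := by
    refine eq_one_of_odd_normal hK (odd_card_of_pow_eq_one hodd fun x hx => hx.2) S.core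
      ⟨L.mul_mem (L.inv_mem (hk g₀)) hαk, ?_⟩
    rw [(hcomm _ (L.inv_mem (hk g₀)) _ hαk).mul_pow, inv_pow, ← map_pow, hNH _ hkN,
      inv_mul_cancel]
  exact hg₀ (S.pair.eq_of_fix (inv_mul_eq_one.1 hfix).symm)

/-- A fixed involution is not central. -/
theorem Setup.not_central (S : Setup α r) {z : X} (hz : orderOf z = 2) (hfz : α z = z) :
    ∃ g, g * z ≠ z * g := by
  by_contra! h
  haveI : (Subgroup.zpowers z).Normal := ⟨fun n hn g => by
    obtain ⟨k, rfl⟩ := Subgroup.mem_zpowers_iff.1 hn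
    rw [((show Commute g z from h g).zpow_right k).eq, mul_inv_cancel_right]
    exact zpow_mem (Subgroup.mem_zpowers z) k⟩
  refine S.no_fixed_normal (Subgroup.zpowers z) ?_ ?_
  · rw [Ne, Subgroup.zpowers_eq_bot]
    exact ne_one hz
  · intro n hn
    obtain ⟨k, rfl⟩ := Subgroup.mem_zpowers_iff.1 hn
    rw [map_zpow, hfz]

/-- Every fixed involution has a conjugate that is moved. -/
theorem Setup.exists_moved_conj (S : Setup α r) {s : X} (hs : orderOf s = 2) :
    ∃ g, α (g * s * g⁻¹) ≠ g * s * g⁻¹ := by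
  by_contra! h
  refine S.no_fixed_normal (Subgroup.normalClosure {s}) ?_ ?_
  · intro hb
    have : s ∈ Subgroup.normalClosure {s} := Subgroup.subset_normalClosure (Set.mem_singleton s)
    rw [hb, Subgroup.mem_bot] at this
    exact ne_one hs this
  · intro n hn
    have hle : Subgroup.normalClosure {s} ≤ fixedSubgroup α := by
      refine (Subgroup.closure_le _).2 fun x hx => ?_
      obtain ⟨y, hy, hc⟩ := Group.mem_conjugatesOfSet_iff.1 hx
      rw [Set.mem_singleton_iff.1 hy] at hc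
      obtain ⟨g, rfl⟩ := isConj_iff.1 hc
      exact h g
    exact hle hn

/-- The odd core of the centralizer of an element, as a subgroup of the group. -/
def Oz (z : X) : Subgroup X :=
  (Cfsg.oddCore ↥(Subgroup.centralizer ({z} : Set X))).map
    (Subgroup.centralizer ({z} : Set X)).subtype

theorem odd_Oz (z : X) : Odd (Nat.card (Oz z)) := by
  rw [Oz, Nat.card_congr (Subgroup.equivMapOfInjective _ _
    (Subgroup.subtype_injective _)).toEquiv.symm]
  exact CfsgLib.Cores.odd_card_oddCore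

theorem Oz_conj {z c x : X} (hc : c * z = z * c) (hx : x ∈ Oz z) : c * x * c⁻¹ ∈ Oz z := by
  obtain ⟨y, hy, rfl⟩ := hx
  exact ⟨⟨c, mem_centralizer_singleton.2 hc⟩ * y * ⟨c, mem_centralizer_singleton.2 hc⟩⁻¹,
    (inferInstance : (Cfsg.oddCore ↥(Subgroup.centralizer ({z} : Set X))).Normal).conj_mem y hy _,
    rfl⟩

theorem centralizer_invariant {z : X} (hfz : α z = z) :
    ∀ x ∈ Subgroup.centralizer ({z} : Set X), α x ∈ Subgroup.centralizer ({z} : Set X) := by
  intro x hx
  rw [mem_centralizer_singleton] at hx ⊢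
  have := congrArg α hx
  rwa [map_mul, map_mul, hfz] at this

theorem map_Oz {z x : X} (hfz : α z = z) (hx : x ∈ Oz z) : α x ∈ Oz z := by
  obtain ⟨y, hy, rfl⟩ := hx
  refine ⟨restrictAut α _ (centralizer_invariant hfz) y, ?_, rfl⟩
  have h := Subgroup.characteristic_iff_map_eq.1
    (CfsgLib.Cores.pPrimeCore_characteristic 2 ↥(Subgroup.centralizer ({z} : Set X)))
    (restrictAut α _ (centralizer_invariant hfz))
  exact h.le (Subgroup.mem_map_of_mem _ hy)

/-- Commutators with `α` in the centralizer of a fixed involution lie in its odd core. -/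
theorem Setup.mem_Oz (S : Setup α r) {z b g : X} (hz : orderOf z = 2) (hfz : α z = z)
    (hb : Good α b) (hbz : b * z = z * b) (hg : g * z = z * g) : g⁻¹ * α g ∈ Oz z := by
  set C := Subgroup.centralizer ({z} : Set X) with hC
  have hlt : Nat.card C < Nat.card X := by
    refine lt_of_le_of_ne (Subgroup.card_le_card_group C) fun he => ?_
    obtain ⟨x, hx⟩ := S.not_central hz hfz
    have : x ∈ C := (Subgroup.card_eq_iff_eq_top C).1 he ▸ Subgroup.mem_top x
    exact hx (mem_centralizer_singleton.1 this)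
  have hgood : Good (restrictAut α C (centralizer_invariant hfz))
      ⟨b, mem_centralizer_singleton.2 hbz⟩ := by
    refine ⟨by rw [← Subgroup.orderOf_coe]; exact hb.1, fun x hx => Subtype.ext ?_⟩
    exact hb.2 x (congrArg Subtype.val hx)
  exact ⟨_, S.ih C hlt _ r _ (S.pair.restrict C (centralizer_invariant hfz)) hgood
    ⟨g, mem_centralizer_singleton.2 hg⟩, rfl⟩

end CfsgLib.CoprimeInvCent
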